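import Cfsg.Agent.H257.OZ.SuzFacts
import Cfsg.Agent.SuzThree.Basic

/-!
# S4816, row `Suz`: upper bounds for some centralizers in `Suz` (helper759)
-/

set_option autoImplicit false
set_option maxRecDepth 1000000
set_option exponentiation.threshold 5000

namespace Cfsg.Agent.H759.RIM.SuzS

open Cfsg Cfsg.Spor Subgroup Cfsg.Agent.H123.Cls Cfsg.Agent.H123.Cls.SuzDat Cfsg.Agent.Lib.BitNet
open Cfsg.Agent.H763.Ore.SuzModel (A N A_conj card_A card_N N_le_A T_mem_A T_notMem T_inv)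
open Cfsg.Agent.OddHalf.Table.SuzRep (ψ ψ_val ψ_injective)
open Cfsg.Agent.OddHalf.Table.SuzGraph (T okT)
open Cfsg.Agent.OddHalf.Table.SuzNets (nT)
open Cfsg.Agent.Lib.BitNetSimple (appF appF_eq)
open Cfsg.Agent.SporadicRecognition.SuzOrder (el card_Suz)
open Cfsg.Agent.SuzThree.Basic (el_append el_reverse t5 eq_one_of_t5)
open Cfsg.Agent.SporadicRecognition.SuzPhi (wd)
open Cfsg.Agent.H257.OZ Cfsg.Agent.H257.OZ.SuzF
open Equiv (Perm)

/-! ### words -/

def w10 : List ℕ := [1, 0, 3, 1, 5, 6, 2, 4, 1, 6, 5, 1, 3, 0, 4, 2]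
def w12 : List ℕ := [1, 4, 2, 3, 4, 1, 3, 2]
def w13 : List ℕ := [4, 0, 3, 1, 0, 4, 1, 3]
def w14 : List ℕ := [1, 0, 1, 0]
def w20 : List ℕ := [6, 5, 3, 2, 1, 3, 5, 6, 1, 2]
def w21 : List ℕ := [4, 2, 1, 6, 3, 5, 1, 2, 4, 5, 3, 6]
def w29 : List ℕ := [1, 6, 5, 1, 2, 6, 1, 2, 1, 5]
def o10 : List ℕ := [1, 0, 4, 6, 1, 2, 3, 5, 6, 1, 0, 2, 1, 5, 1, 2, 3, 4, 3, 2, 3, 0, 1, 2, 0, 1, 6, 3, 4, 1]
def o12 : List ℕ := [3, 5, 1, 2, 6, 1, 0, 1, 2, 1, 3, 2, 1, 4, 3, 2, 1, 0, 1, 6, 5, 4, 1, 2, 3, 2, 1, 5, 6, 4, 3]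
def o13 : List ℕ := [0, 1, 6, 5, 1, 2, 3, 2, 1, 4, 3, 2, 5, 1, 6, 1, 5, 3, 2, 3, 4, 1, 2, 3, 2, 1, 6, 5, 3]
def u7 : List ℕ := [0, 4, 3, 2, 1, 0, 3, 4, 6, 1, 2, 3, 2, 4, 3, 5, 1, 2, 3, 2, 1, 6, 1, 5, 2, 1, 6, 4, 2, 3, 1, 0]
def u9 : List ℕ := [2, 6, 5, 1, 2, 3, 2, 4, 6, 1, 5, 6, 1, 2, 3, 5, 2, 3, 4, 3, 1, 0, 1, 2, 3, 2, 1]
def u10 : List ℕ := [2, 1, 3, 2, 1, 4, 3, 2, 1, 3, 4, 5, 6, 1, 2, 3, 2, 1, 5, 6, 1, 5, 2, 1, 0, 1, 5, 3, 2, 1, 6, 5, 3, 1]
def wI : List ℕ := [0, 1, 2, 1, 0, 1, 0, 3, 2, 3, 1, 2, 3, 2, 1, 0, 1, 2]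
def wT : List ℕ := [2, 4, 3, 5, 6, 1, 2, 3, 2, 1, 6, 5, 1, 2, 3, 2, 3, 4, 1, 2]

/-- the element of a word -/
noncomputable def g (l : List ℕ) : Suz := el (l.map gn)

theorem g_append (l m : List ℕ) : g (l ++ m) = g l * g m := by rw [g, List.map_append, el_append]; rfl

theorem g_reverse (l : List ℕ) : g l.reverse = (g l)⁻¹ := by rw [g, List.map_reverse, el_reverse]; rfl

/-- powers of words -/
def rep (l : List ℕ) (n : ℕ) : List ℕ := (List.replicate n l).flatten

theorem g_rep (l : List ℕ) (n : ℕ) : g (rep l n) = g l ^ n := by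
  induction n with
  | zero =>
    rw [pow_zero, rep, List.replicate_zero, List.flatten_nil, g, List.map_nil, el, List.map_nil, List.prod_nil]
  | succ n ih =>
    rw [rep, List.replicate_succ, List.flatten_cons, g_append, pow_succ']
    exact congrArg _ ih

theorem eq_of {l m : List ℕ} (h : t5 (wd ((l ++ m.reverse).map gn)) = true) : g l = g m := by
  have h1 : g (l ++ m.reverse) = 1 := eq_one_of_t5 (Cfsg.Agent.SuzThree.Basic.Rep.el _) h
  rw [g_append, g_reverse] at h1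
  exact mul_inv_eq_one.1 h1

theorem tab_of {l : List ℕ} (hl : ∀ x ∈ l, x < 7) {P : ℕ}
    (h : allN (fun p => Nat.beq (evw 11 gens l p) (lk 11 P p)) 1782 = true) (p : Fin 1782) :
    (ψ (g l) p : ℕ) = lk 11 P p := by
  rw [g, ev_tab l hl]
  exact Nat.eq_of_beq_eq_true ((allN_iff _ _).1 h p p.2)

theorem t10 : allN (fun p => Nat.beq (evw 11 gens w10 p) (lk 11 p10 p)) 1782 = true := by decide +kernel
theorem t12 : allN (fun p => Nat.beq (evw 11 gens w12 p) (lk 11 p12 p)) 1782 = true := by decide +kernel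
theorem t13 : allN (fun p => Nat.beq (evw 11 gens w13 p) (lk 11 p13 p)) 1782 = true := by decide +kernel
theorem t14 : allN (fun p => Nat.beq (evw 11 gens w14 p) (lk 11 p14 p)) 1782 = true := by decide +kernel
theorem t20 : allN (fun p => Nat.beq (evw 11 gens w20 p) (lk 11 p20 p)) 1782 = true := by decide +kernel
theorem t21 : allN (fun p => Nat.beq (evw 11 gens w21 p) (lk 11 p21 p)) 1782 = true := by decide +kernel
theorem t29 : allN (fun p => Nat.beq (evw 11 gens w29 p) (lk 11 p29 p)) 1782 = true := by decide +kernel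

theorem m10 : (p10, 55, [396, 0, 476, 4, 396, 0, 0]) ∈ D := mem_D (y := 10) rfl
theorem m12 : (p12, 39, [400, 2, 400, 2, 400, 2, 42]) ∈ D := mem_D (y := 12) rfl
theorem m13 : (p13, 29, [400, 2, 400, 2, 400, 2, 162]) ∈ D := mem_D (y := 13) rfl
theorem m14 : (p14, 599, [400, 2, 400, 2, 400, 2, 1782]) ∈ D := mem_D (y := 14) rfl
theorem m20 : (p20, 53, [432, 0, 432, 0, 324, 0, 0]) ∈ D := mem_D (y := 20) rfl
theorem m21 : (p21, 17, [432, 0, 432, 0, 540, 0, 0]) ∈ D := mem_D (y := 21) rfl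
theorem m29 : (p29, 167, [476, 4, 476, 4, 476, 4, 4]) ∈ D := mem_D (y := 29) rfl

/-- the centralizer in `A` -/
noncomputable def cA (x : Suz) : ℕ := Nat.card ↥(A ⊓ centralizer {ψ x})

instance : Finite Suz := fin

theorem card_le_cA (x : Suz) : Nat.card (centralizer ({x} : Set Suz)) ≤ cA x := by
  rw [← card_inf]
  exact Nat.card_mono (Set.toFinite _) (inf_le_inf_right _ N_le_A)

theorem cA_le {l : List ℕ} (hl : ∀ x ∈ l, x < 7) {x : ℕ × ℕ × List ℕ} (hx : x ∈ D)
    (h : allN (fun p => Nat.beq (evw 11 gens l p) (lk 11 x.1 p)) 1782 = true) : cA (g l) ≤ x.2.1 + 1 :=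
  cent_A_le hx (tab_of hl h)

/-- conjugate elements of `A` -/
theorem cA_conj {a : Perm (Fin 1782)} (ha : a ∈ A) {x y : Suz} (h : ψ x * a = a * ψ y) : cA x = cA y := by
  have h1 : (A ⊓ centralizer {ψ y}).map (MulAut.conj a).toMonoidHom = A ⊓ centralizer {ψ x} := by
    have hx : ψ x = a * ψ y * a⁻¹ := by rw [← h]; group
    ext z
    rw [mem_map]
    constructor
    · rintro ⟨w, hw, rfl⟩
      refine mem_inf.2 ⟨A.mul_mem (A.mul_mem ha (mem_inf.1 hw).1) (A.inv_mem ha), ?_⟩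
      have h2 := mem_centralizer_singleton_iff.1 (mem_inf.1 hw).2
      rw [mem_centralizer_singleton_iff, hx]
      change a * w * a⁻¹ * (a * ψ y * a⁻¹) = a * ψ y * a⁻¹ * (a * w * a⁻¹)
      calc a * w * a⁻¹ * (a * ψ y * a⁻¹) = a * (w * ψ y) * a⁻¹ := by group
        _ = a * (ψ y * w) * a⁻¹ := by rw [h2]
        _ = _ := by group
    · intro hz
      refine ⟨a⁻¹ * z * a, mem_inf.2 ⟨A.mul_mem (A.mul_mem (A.inv_mem ha) (mem_inf.1 hz).1) ha, ?_⟩, ?_⟩
      · have h2 := mem_centralizer_singleton_iff.1 (mem_inf.1 hz).2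
        rw [hx] at h2
        rw [mem_centralizer_singleton_iff]
        calc a⁻¹ * z * a * ψ y = a⁻¹ * (z * (a * ψ y * a⁻¹)) * a := by group
          _ = a⁻¹ * (a * ψ y * a⁻¹ * z) * a := by rw [h2]
          _ = _ := by group
      · change a * (a⁻¹ * z * a) * a⁻¹ = z
        group
  rw [cA, cA, ← h1]
  exact (card_map_of_injective (MulAut.conj a).injective)

/-- an outer element commuting with `x` -/
theorem half {x : Suz} {w : Suz} (h : T * ψ x * T * ψ w = ψ w * ψ x) {m : ℕ} (hm : cA x ≤ 2 * m) :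
    Nat.card (centralizer ({x} : Set Suz)) ≤ m := by
  rw [← card_inf]
  have hT : T * T = 1 := by
    have := T_inv
    nth_rewrite 1 [← this]
    exact inv_mul_cancel _
  have hc : ψ x * (T * ψ w) = T * ψ w * ψ x := by
    calc ψ x * (T * ψ w) = T * (T * ψ x * T * ψ w) := by
          rw [← mul_assoc, ← mul_assoc, ← mul_assoc, ← mul_assoc, hT, one_mul]
      _ = T * ψ w * ψ x := by rw [h, mul_assoc]
  refine card_le_half (H := N ⊓ centralizer {ψ x}) (C := A ⊓ centralizer {ψ x}) (inf_le_inf_right _ N_le_A)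
    (a := T * ψ w) (mem_inf.2 ⟨A.mul_mem T_mem_A (N_le_A ⟨w, rfl⟩), ?_⟩) ?_ hm inferInstance
  · rw [mem_centralizer_singleton_iff, hc]
  · intro h1
    have h2 := (mem_inf.1 h1).1
    rw [N.mul_mem_cancel_right ⟨w, rfl⟩] at h2
    exact T_notMem h2

/-- an outer element commuting with `x` commutes with its powers -/
theorem half_pow {x : Suz} {w : Suz} (h : T * ψ x * T * ψ w = ψ w * ψ x) {k m : ℕ} (hm : cA (x ^ k) ≤ 2 * m) :
    Nat.card (centralizer ({x ^ k} : Set Suz)) ≤ m := by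
  refine half (w := w) ?_ hm
  have hT : T * T = 1 := by
    have := T_inv
    nth_rewrite 1 [← this]
    exact inv_mul_cancel _
  have h1 : T * ψ x * T = ψ w * ψ x * (ψ w)⁻¹ := by rw [← h]; group
  have h2 : ∀ k : ℕ, T * ψ x ^ k * T = (T * ψ x * T) ^ k := by
    intro k
    induction k with
    | zero => rw [pow_zero, pow_zero, mul_one, hT]
    | succ k ih =>
      rw [pow_succ, pow_succ, ← ih]
      calc T * (ψ x ^ k * ψ x) * T = T * ψ x ^ k * (T * T) * ψ x * T := by rw [hT]; group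
        _ = _ := by group
  rw [map_pow, h2, h1, conj_pow]
  group

theorem T_val (p : Fin 1782) : (T p : ℕ) = appF nT p := by
  rw [appF_eq]
  rfl

theorem outer_of {l w : List ℕ} {P : ℕ} (hl : ∀ p : Fin 1782, (ψ (g l) p : ℕ) = lk 11 P p) (hw : ∀ x ∈ w, x < 7)
    (h : allN (fun p => Nat.beq (appF nT (lk 11 P (appF nT (evw 11 gens w p)))) (evw 11 gens w (lk 11 P p))) 1782 = true) :
    T * ψ (g l) * T * ψ (g w) = ψ (g w) * ψ (g l) := by
  ext p
  rw [Equiv.Perm.mul_apply, Equiv.Perm.mul_apply, Equiv.Perm.mul_apply, Equiv.Perm.mul_apply, T_val, hl, T_val, g,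
    ev_tab w hw, ev_tab w hw, hl]
  exact Nat.eq_of_beq_eq_true ((allN_iff _ _).1 h p p.2)

theorem co10 : allN (fun p => Nat.beq (appF nT (lk 11 p10 (appF nT (evw 11 gens o10 p)))) (evw 11 gens o10 (lk 11 p10 p)))
    1782 = true := by decide +kernel
theorem co12 : allN (fun p => Nat.beq (appF nT (lk 11 p12 (appF nT (evw 11 gens o12 p)))) (evw 11 gens o12 (lk 11 p12 p)))
    1782 = true := by decide +kernel
theorem co13 : allN (fun p => Nat.beq (appF nT (lk 11 p13 (appF nT (evw 11 gens o13 p)))) (evw 11 gens o13 (lk 11 p13 p)))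
    1782 = true := by decide +kernel

/-- **14A** -/
theorem c14 : Nat.card (centralizer ({g w10} : Set Suz)) ≤ 28 :=
  half (outer_of (tab_of (by decide) t10) (by decide) co10) (cA_le (by decide) m10 t10)

/-- **10B** -/
theorem c10' : Nat.card (centralizer ({g w12} : Set Suz)) ≤ 20 :=
  half (outer_of (tab_of (by decide) t12) (by decide) co12) (cA_le (by decide) m12 t12)

/-- **15C** -/
theorem c15 : Nat.card (centralizer ({g w13} : Set Suz)) ≤ 15 :=
  half (outer_of (tab_of (by decide) t13) (by decide) co13) (cA_le (by decide) m13 t13)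

/-- **18A** -/
theorem c18 : Nat.card (centralizer ({g w21} : Set Suz)) ≤ 18 :=
  (card_le_cA _).trans (cA_le (by decide) m21 t21)

theorem r7 : g w10 ^ 8 * g u7 = g u7 * g w29 := by
  rw [← g_rep, ← g_append, ← g_append]
  exact eq_of (by decide +kernel)

/-- **7A** -/
theorem c7 : Nat.card (centralizer ({g w10 ^ 8} : Set Suz)) ≤ 84 := by
  refine half_pow (outer_of (tab_of (by decide) t10) (by decide) co10) ?_
  rw [cA_conj (N_le_A ⟨g u7, rfl⟩) (y := g w29) (by rw [← map_mul, ← map_mul, r7])]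
  exact cA_le (by decide) m29 t29

theorem r5 : g w13 ^ 6 * g [0] = g [0] * g w14 := by
  rw [← g_rep, ← g_append, ← g_append]
  exact eq_of (by decide +kernel)

/-- **5B** -/
theorem c5 : Nat.card (centralizer ({g w13 ^ 6} : Set Suz)) ≤ 300 := by
  refine half_pow (outer_of (tab_of (by decide) t13) (by decide) co13) ?_
  rw [cA_conj (N_le_A ⟨g [0], rfl⟩) (y := g w14) (by rw [← map_mul, ← map_mul, r5])]
  exact cA_le (by decide) m14 t14

theorem r10 : g w13 ^ 6 * g wI * g u10 = g u10 * g w12 := by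
  rw [← g_rep, ← g_append, ← g_append, ← g_append]
  exact eq_of (by decide +kernel)

theorem card_conj {G : Type*} [Group G] {x y a : G} (h : x * a = a * y) :
    Nat.card (centralizer ({x} : Set G)) = Nat.card (centralizer ({y} : Set G)) := by
  have h1 : (centralizer ({y} : Set G)).map (MulAut.conj a).toMonoidHom = centralizer ({x} : Set G) := by
    have hx : x = a * y * a⁻¹ := by rw [← h]; group
    ext z
    rw [mem_map, mem_centralizer_singleton_iff]
    constructor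
    · rintro ⟨w, hw, rfl⟩
      have h2 := mem_centralizer_singleton_iff.1 hw
      rw [hx]
      change a * w * a⁻¹ * (a * y * a⁻¹) = a * y * a⁻¹ * (a * w * a⁻¹)
      calc a * w * a⁻¹ * (a * y * a⁻¹) = a * (w * y) * a⁻¹ := by group
        _ = a * (y * w) * a⁻¹ := by rw [h2]
        _ = _ := by group
    · intro hz
      rw [hx] at hz
      refine ⟨a⁻¹ * z * a, mem_centralizer_singleton_iff.2 ?_, ?_⟩
      · calc a⁻¹ * z * a * y = a⁻¹ * (z * (a * y * a⁻¹)) * a := by group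
          _ = a⁻¹ * (a * y * a⁻¹ * z) * a := by rw [hz]
          _ = _ := by group
      · change a * (a⁻¹ * z * a) * a⁻¹ = z
        group
  rw [← h1]
  exact card_map_of_injective (MulAut.conj a).injective

/-- **10B** as a product -/
theorem c10 : Nat.card (centralizer ({g w13 ^ 6 * g wI} : Set Suz)) ≤ 20 := by
  rw [card_conj r10]
  exact c10'

theorem co9 : allN (fun p => Nat.beq (appF nT (it 11 p21 10 (appF nT (evw 11 gens u9 p)))) (evw 11 gens u9 (lk 11 p20 p)))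
    1782 = true := by decide +kernel

/-- **9A** -/
theorem c9 : Nat.card (centralizer ({g w21 ^ 10} : Set Suz)) ≤ 54 := by
  refine (card_le_cA _).trans ?_
  have hT : T * T = 1 := by
    have := T_inv
    nth_rewrite 1 [← this]
    exact inv_mul_cancel _
  rw [cA_conj (A.mul_mem T_mem_A (N_le_A ⟨g u9, rfl⟩)) (y := g w20) ?_]
  · exact cA_le (by decide) m20 t20
  · have h1 : T * ψ (g w21 ^ 10) * T * ψ (g u9) = ψ (g u9) * ψ (g w20) := by
      ext p
      rw [Equiv.Perm.mul_apply, Equiv.Perm.mul_apply, Equiv.Perm.mul_apply, Equiv.Perm.mul_apply, T_val, map_pow,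
        pow_tab (tab_of (by decide) t21), T_val, tab_of (by decide) t20 p |> fun h => (by
          have := ev_tab u9 (by decide) (ψ (g w20) p); rw [h] at this; exact this : (ψ (g u9) (ψ (g w20) p) : ℕ) =
            evw 11 gens u9 (lk 11 p20 p))]
      rw [show (ψ (g u9) p : ℕ) = evw 11 gens u9 p from ev_tab u9 (by decide) p]
      exact Nat.eq_of_beq_eq_true ((allN_iff _ _).1 co9 p p.2)
    calc ψ (g w21 ^ 10) * (T * ψ (g u9)) = T * (T * ψ (g w21 ^ 10) * T * ψ (g u9)) := by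
          rw [← mul_assoc, ← mul_assoc, ← mul_assoc, ← mul_assoc, hT, one_mul]
      _ = T * ψ (g u9) * ψ (g w20) := by rw [h1, mul_assoc]

end Cfsg.Agent.H759.RIM.SuzS
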