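import Cfsg.Agent.H759.RIM.SuzS
import Cfsg.Agent.H264.QS.Suz6

/-!
# S4816, row `Suz`: relations in the sixfold cover (helper759)
-/

set_option autoImplicit false
set_option maxRecDepth 1000000
set_option exponentiation.threshold 5000

namespace Cfsg.Agent.H759.RIM.SuzY

open Cfsg Cfsg.Spor Subgroup Cfsg.Agent.H759.RIM.SuzS
open Cfsg.Agent.H123.Cls.SuzDat (gn)
open Cfsg.Agent.H257.OZ Cfsg.Agent.H257.OZ.SuzF Cfsg.Agent.H123.Cls Cfsg.Agent.H123.Cls.SuzDat
open Cfsg.Agent.Lib.PackMat (okG checkEq checkScalar)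
open Cfsg.Agent.H58.SuzRep (M12 C12 Y q q_surj q_ker z z_mem q_z orderOf_z coe_z coe_z_pow s coe_s u coe_prod W ok_W ok6 s6
  mk mk6 prod_eq)

/-- the lift of a word -/
noncomputable def r (l : List ℕ) : Y := ((l.map gn).map s).prod

theorem q_r (l : List ℕ) : q (r l) = g l := Cfsg.Agent.H264.QS.Suz6.q_word _

theorem r_append (l m : List ℕ) : r (l ++ m) = r l * r m := by
  rw [r, List.map_append, List.map_append, List.prod_append]; rfl

theorem r_rep (l : List ℕ) (n : ℕ) : r (rep l n) = r l ^ n := by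
  induction n with
  | zero =>
    rw [pow_zero, rep, List.replicate_zero, List.flatten_nil, r, List.map_nil, List.map_nil, List.prod_nil]
  | succ n ih =>
    rw [rep, List.replicate_succ, List.flatten_cons, r_append, pow_succ']
    exact congrArg _ ih

/-- packed codes of a word -/
noncomputable def V (l : List ℕ) : List ℕ := W (l.map gn)

theorem coe_r (l : List ℕ) : ((r l : M12ˣ) : M12) = ((V l).map mk).prod := by
  rw [r, coe_s, coe_prod]; rfl

theorem r_eq {l m : List ℕ} (h : checkEq C12 (V l) (V m) 0 12 = true) : r l = r m := by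
  apply Subtype.ext
  apply Units.ext
  rw [coe_r, coe_r]
  exact prod_eq (ok_W _) (ok_W _) h

/-- minus one -/
noncomputable def ζ : Y := z ^ 3

theorem coe_ζ : ((ζ : M12ˣ) : M12) = (6 : ZMod 7) • (1 : M12) := by
  rw [ζ, coe_z_pow]
  rfl

theorem r_eq_neg {l m : List ℕ} (h : checkEq C12 (V l) (s6 :: V m) 0 12 = true) : r l = ζ * r m := by
  have h1 := prod_eq (ok_W (l.map gn)) (w := s6 :: V m)
    (fun g hg => by
      rcases List.mem_cons.1 hg with rfl | hg
      · exact ok6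
      · exact ok_W _ g hg) h
  apply Subtype.ext
  apply Units.ext
  rw [coe_r, Subgroup.coe_mul, Units.val_mul, coe_r, coe_ζ, smul_mul_assoc, one_mul]
  rw [List.map_cons, List.prod_cons, mk6, smul_mul_assoc, one_mul] at h1
  exact h1

theorem r_nil : r [] = 1 := rfl

/-! ### the prime 3 -/

theorem R21 : r w21 ^ 18 = 1 := by
  rw [← r_rep, ← r_nil]
  exact r_eq (by decide +kernel)

/-! ### the prime 7 -/

theorem R10 : r w10 ^ 14 = ζ := by
  rw [← r_rep, ← mul_one ζ, ← r_nil]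
  exact r_eq_neg (by decide +kernel)

theorem T3 : r wT ^ 3 = 1 := by
  rw [← r_rep, ← r_nil]
  exact r_eq (by decide +kernel)

theorem TX : r wT * r w10 ^ 8 = r w10 ^ 8 * r wT := by
  rw [← r_rep, ← r_append, ← r_append]
  exact r_eq (by decide +kernel)

/-- `I J = ζ J I` with `J = T I T⁻¹` -/
theorem TIJ : r w10 ^ 7 * (r wT * r w10 ^ 7 * r wT ^ 2) = ζ * (r wT * r w10 ^ 7 * r wT ^ 2 * r w10 ^ 7) := by
  rw [← r_rep, ← r_rep, ← r_append, ← r_append, ← r_append, ← r_append]
  exact r_eq_neg (by decide +kernel)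

/-- `T J T⁻¹ = I J` -/
theorem TJ : r wT * (r wT * r w10 ^ 7 * r wT ^ 2) * r wT ^ 2 = r w10 ^ 7 * (r wT * r w10 ^ 7 * r wT ^ 2) := by
  rw [← r_rep, ← r_rep, ← r_append, ← r_append, ← r_append, ← r_append, ← r_append]
  exact r_eq (by decide +kernel)

/-! ### the prime 5 -/

theorem R13 : r w13 ^ 15 = 1 := by
  rw [← r_rep, ← r_nil]
  exact r_eq (by decide +kernel)

theorem II : r wI * r wI = ζ := by
  rw [← r_append, ← mul_one ζ, ← r_nil]
  exact r_eq_neg (by decide +kernel)

theorem IX : r wI * r w13 ^ 6 = r w13 ^ 6 * r wI := by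
  rw [← r_rep, ← r_append, ← r_append]
  exact r_eq (by decide +kernel)

theorem IJ : r wI * (r w13 ^ 10 * r wI * r w13 ^ 5) = ζ * (r w13 ^ 10 * r wI * r w13 ^ 5 * r wI) := by
  rw [← r_rep, ← r_rep, ← r_append, ← r_append, ← r_append, ← r_append]
  exact r_eq_neg (by decide +kernel)

theorem JK : r w13 ^ 10 * (r w13 ^ 10 * r wI * r w13 ^ 5) * r w13 ^ 5 = r wI * (r w13 ^ 10 * r wI * r w13 ^ 5) := by
  rw [← r_rep, ← r_rep, ← r_append, ← r_append, ← r_append, ← r_append, ← r_append]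
  exact r_eq (by decide +kernel)

theorem SS : r [3] * r [3] = ζ := by
  rw [← r_append, ← mul_one ζ, ← r_nil]
  exact r_eq_neg (by decide +kernel)

theorem SX : r [3] * r w13 ^ 6 = r w13 ^ 6 * r [3] := by
  rw [← r_rep, ← r_append, ← r_append]
  exact r_eq (by decide +kernel)

/-- `S T S⁻¹ = T⁻¹` with `T = R ^ 10` -/
theorem ST : r [3] * r w13 ^ 10 = r w13 ^ 5 * r [3] := by
  rw [← r_rep, ← r_rep, ← r_append, ← r_append]
  exact r_eq (by decide +kernel)

/-! ### some elements are not trivial -/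

theorem ne_one_of {l : List ℕ} (hl : ∀ x ∈ l, x < 7) (p : Fin 1782)
    (h : Nat.beq (Cfsg.Agent.H123.Cls.evw 11 Cfsg.Agent.H123.Cls.SuzDat.gens l p) p = false) : g l ≠ 1 := by
  intro h1
  have h2 := ev_tab l hl p
  rw [← g, h1, map_one] at h2
  rw [← h2] at h
  simp at h

theorem ne7 : g w10 ^ 7 ≠ 1 := by
  rw [← g_rep]
  exact ne_one_of (by decide) 0 (by decide +kernel)

theorem neI : g wI ≠ 1 := ne_one_of (by decide) 4 (by decide +kernel)

theorem neT : g w13 ^ 10 ≠ 1 := by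
  rw [← g_rep]
  exact ne_one_of (by decide) 4 (by decide +kernel)

end Cfsg.Agent.H759.RIM.SuzY
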